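import Mathlib
import Cfsg.Agent.Lib.HH.BG3
import Cfsg.Agent.Lib.Core.MinNormal

/-!
Fixed spaces on graded modules, and fixed points in transitive solvable groups.
-/

set_option autoImplicit false

namespace CfsgLib.FlavD

open Module MulAction CfsgLib.HH

variable {G : Type*} [Group G] {Ω : Type*} [MulAction G Ω]

/-- The number of orbits of a group of prime order. -/
theorem card_orbits [Finite Ω] {P : Subgroup G} {p : ℕ} (hp : p.Prime) (hP : Nat.card P = p) :
    p * Nat.card (orbitRel.Quotient P Ω) = Nat.card Ω + (p - 1) * Nat.card (fixedPoints P Ω) := by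
  classical
  haveI : Finite P := Nat.finite_of_card_ne_zero (hP ▸ hp.ne_zero)
  haveI := Fintype.ofFinite P
  haveI := Fintype.ofFinite Ω
  haveI := Fintype.ofFinite (orbitRel.Quotient P Ω)
  haveI : Fact p.Prime := ⟨hp⟩
  have h := sum_card_fixedBy_eq_card_orbits_mul_card_group P Ω
  have h1 : ∀ g : P, g ≠ 1 → Fintype.card (fixedBy Ω g) = Nat.card (fixedPoints P Ω) := by
    intro g hg
    rw [← Nat.card_eq_fintype_card]
    congr 2
    ext ω
    refine ⟨fun h a => ?_, fun h => h g⟩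
    have : a ∈ Subgroup.zpowers g := by
      rw [zpowers_eq_top_of_prime_card hP hg]; trivial
    exact (Subgroup.zpowers_le (H := stabilizer P ω)).2 h this
  rw [← Finset.add_sum_erase _ _ (Finset.mem_univ (1 : P)),
    Finset.sum_congr rfl fun g hg => h1 g (Finset.ne_of_mem_erase hg), Finset.sum_const,
    Finset.card_erase_of_mem (Finset.mem_univ _), Finset.card_univ, ← Nat.card_eq_fintype_card (α := P),
    hP, smul_eq_mul, ← Nat.card_eq_fintype_card (α := Quotient _), mul_comm _ p] at h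
  rw [← h, ← Nat.card_eq_fintype_card]
  simp

variable {F : Type*} [Field F] {V : Type*} [AddCommGroup V] [Module F V] [FiniteDimensional F V]

/-- The fixed space of a group of prime order which permutes the members of a grading. -/
theorem grade [Finite Ω] (ρ : Representation F G V) {P : Subgroup G} {p : ℕ} (hp : p.Prime)
    (hP : Nat.card P = p) (W : Ω → Submodule F V) (hi : iSupIndep W) (hs : iSup W = ⊤)
    (hW : ∀ g ∈ P, ∀ ω, ∀ v ∈ W ω, ρ g v ∈ W (g • ω)) {m : ℕ} (hm : ∀ ω, finrank F (W ω) = m) :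
    finrank F V = Nat.card Ω * m ∧ p * finrank F (fixSp ρ P) ≤
      m * (Nat.card Ω + (p - 1) * Nat.card (fixedPoints P Ω)) := by
  classical
  haveI := Fintype.ofFinite Ω
  haveI := Fintype.ofFinite (orbitRel.Quotient P Ω)
  have hint := DirectSum.isInternal_submodule_of_iSupIndep_of_iSup_eq_top hi hs
  letI := hint.chooseDecomposition
  refine ⟨?_, ?_⟩
  · rw [(DirectSum.decomposeLinearEquiv W).finrank_eq, finrank_directSum]
    simp [hm]
  have key : ∀ g ∈ P, ∀ ω v, (DirectSum.decompose W (ρ g v) (g • ω) : V) =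
      ρ g (DirectSum.decompose W v ω) := by
    intro g hg ω v
    induction v using DirectSum.Decomposition.inductionOn W with
    | zero => simp
    | @homogeneous i v =>
      by_cases h : i = ω
      · subst h
        rw [DirectSum.decompose_of_mem_same W (hW g hg i v v.2), DirectSum.decompose_of_mem_same W v.2]
      · rw [DirectSum.decompose_of_mem_ne W (hW g hg i v v.2) fun e => h (smul_left_cancel g e),
          DirectSum.decompose_of_mem_ne W v.2 h, map_zero]
    | add u v hu hv => simp [hu, hv]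
  let f : fixSp ρ P →ₗ[F] (Π o : orbitRel.Quotient P Ω, W o.out) :=
    LinearMap.pi fun o => (DirectSum.component F Ω (fun ω => W ω) o.out) ∘ₗ
      (DirectSum.decomposeLinearEquiv W).toLinearMap ∘ₗ (fixSp ρ P).subtype
  have hf : Function.Injective f := by
    rw [injective_iff_map_eq_zero]
    intro v hv
    refine Subtype.ext ((DirectSum.decompose W).injective (DFinsupp.ext fun ω => Subtype.ext ?_))
    obtain ⟨g, hg⟩ : ∃ g : P, g • (Quotient.mk (orbitRel P Ω) ω).out = ω :=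
      (orbitRel P Ω).symm (Quotient.mk_out (s := orbitRel P Ω) ω)
    have h1 : DirectSum.decompose W (v : V) (Quotient.mk (orbitRel P Ω) ω).out = 0 :=
      congrFun hv (Quotient.mk (orbitRel P Ω) ω)
    have h2 := key g g.2 (Quotient.mk (orbitRel P Ω) ω).out v
    rw [mem_fixSp.1 v.2 g g.2, h1, show (g : G) • (Quotient.mk (orbitRel P Ω) ω).out = ω from hg] at h2
    simpa using h2
  have h1 := LinearMap.finrank_le_finrank_of_injective hf
  rw [finrank_pi_fintype, Finset.sum_congr rfl fun o _ => hm _, Finset.sum_const, Finset.card_univ,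
    smul_eq_mul, ← Nat.card_eq_fintype_card] at h1
  rw [← card_orbits hp hP]
  nlinarith

/-- An element of prime order `p ≥ 5` whose conjugates generate a transitive solvable group fixes
at most a third of the points. -/
theorem fp [Finite G] [Group.IsSolvable G] [Finite Ω] [Nontrivial Ω] [IsPretransitive G Ω] {x : G}
    {p : ℕ} (hp : p.Prime) (h2 : p ≠ 2) (hx : x ^ p = 1)
    (hgen : Subgroup.normalClosure ({x} : Set G) = ⊤) :
    3 * Nat.card (fixedPoints (Subgroup.zpowers x) Ω) ≤ Nat.card Ω := by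
  classical
  rcases isEmpty_or_nonempty (fixedPoints (Subgroup.zpowers x) Ω) with h0 | ⟨⟨ω₀, hω₀⟩⟩
  · simp
  have hfix : ∀ ω ∈ fixedPoints (Subgroup.zpowers x) Ω, x • ω = ω := fun ω hω =>
    hω ⟨x, Subgroup.mem_zpowers x⟩
  have hH : stabilizer G ω₀ ≠ ⊤ := fun e => by
    obtain ⟨ω, hω⟩ := exists_ne ω₀
    obtain ⟨g, rfl⟩ := exists_smul_eq G ω₀ ω
    exact hω (e.ge (Subgroup.mem_top g))
  obtain ⟨M, hM, hHM⟩ := (eq_top_or_exists_le_coatom _).resolve_left hH
  have hxM : x ∈ M := hHM (hfix ω₀ hω₀)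
  obtain ⟨N, ⟨hN, hNM⟩, hmin⟩ := (wellFounded_lt (α := Subgroup G)).has_min
    {N | N.Normal ∧ ¬ N ≤ M} ⟨⊤, inferInstance, fun e => hM.1 (top_le_iff.1 e)⟩
  have hsup : M ⊔ N = ⊤ := hM.2 _ (left_lt_sup.2 hNM)
  have hdec : ∀ g : G, ∃ n ∈ N, ∃ m ∈ M, g = n * m := fun g => by
    have : g ∈ ((N ⊔ M : Subgroup G) : Set G) := by rw [sup_comm, hsup]; trivial
    rw [Subgroup.normal_mul] at this
    obtain ⟨n, hn, m, hm, rfl⟩ := this
    exact ⟨n, hn, m, hm, rfl⟩
  have hder : ⁅N, N⁆ ≤ M := by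
    by_contra h
    exact hmin _ ⟨inferInstance, h⟩
      (IsSolvable.commutator_lt_of_ne_bot fun e => hNM (e.le.trans bot_le))
  have hc : ∀ a ∈ N, ∀ b ∈ N, a * b * a⁻¹ * b⁻¹ ∈ M := fun a ha b hb =>
    hder (Subgroup.commutator_mem_commutator ha hb)
  haveI hK : (M ⊓ N).Normal := ⟨fun k hk g => by
    obtain ⟨n, hn, m, hm, rfl⟩ := hdec g
    have h1 : m * k * m⁻¹ ∈ M := M.mul_mem (M.mul_mem hm hk.1) (M.inv_mem hm)
    have h3 : n * m * k * (n * m)⁻¹ = n * (m * k * m⁻¹) * n⁻¹ * (m * k * m⁻¹)⁻¹ * (m * k * m⁻¹) := by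
      group
    exact ⟨h3 ▸ M.mul_mem (hc n hn _ (hN.conj_mem k hk.2 m)) h1, hN.conj_mem k hk.2 _⟩⟩
  let π := QuotientGroup.mk' (M ⊓ N)
  have hπ : ∀ a, π a = 1 ↔ a ∈ M ⊓ N := fun a => QuotientGroup.eq_one_iff a
  let C : Subgroup G := (Subgroup.centralizer {π x}).comap π
  have hC : ∀ n ∈ N, n ∈ C ↔ n⁻¹ * x * n ∈ M := fun n hn => by
    have h1 : n ∈ C ↔ π (x⁻¹ * (n⁻¹ * x * n)) = 1 := by
      rw [Subgroup.mem_comap, Subgroup.mem_centralizer_singleton_iff]
      simp only [map_mul, map_inv]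
      constructor
      · intro h
        rw [mul_assoc (π n)⁻¹, ← h]; group
      · intro h
        calc π n * π x = π n * π x * ((π x)⁻¹ * ((π n)⁻¹ * π x * π n)) := by rw [h, mul_one]
          _ = π x * π n := by group
    rw [h1, hπ]
    refine ⟨fun h => (M.mul_mem_cancel_left (M.inv_mem hxM)).1 h.1, fun h =>
      ⟨M.mul_mem (M.inv_mem hxM) h, ?_⟩⟩
    have : x⁻¹ * (n⁻¹ * x * n) = x⁻¹ * n⁻¹ * x⁻¹⁻¹ * n := by group
    exact this ▸ N.mul_mem (hN.conj_mem _ (N.inv_mem hn) _) hn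
  have hKC : M ⊓ N ≤ C := fun k hk => by
    rw [Subgroup.mem_comap, (hπ k).2 hk]; exact one_mem _
  -- the index is at least three
  have i1 : C.relIndex N ≠ 1 := fun e => by
    rw [Subgroup.relIndex_eq_one] at e
    refine hM.1 (top_le_iff.1 (hgen.ge.trans ((Subgroup.closure_le _).2 fun y hy => ?_)))
    obtain ⟨z, hz, hc⟩ := Group.mem_conjugatesOfSet_iff.1 hy
    obtain ⟨g, rfl⟩ := isConj_iff.1 hc
    obtain rfl : z = x := hz
    obtain ⟨n, hn, m, hm, e1⟩ := hdec g⁻¹
    have : g * z * g⁻¹ = m⁻¹ * (n⁻¹ * z * n) * m := by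
      rw [← inv_inv g, e1]; group
    exact this ▸ M.mul_mem (M.mul_mem (M.inv_mem hm) ((hC n hn).1 (e hn))) hm
  have i2 : C.relIndex N ≠ 2 := fun e => i1 (Subgroup.relIndex_eq_one.2 fun n hn => by
    have hxC : ∀ a, x * a * x⁻¹ ∈ C ↔ a ∈ C := fun a => by
      have : x ∈ C := Subgroup.mem_centralizer_singleton_iff.2 rfl
      rw [C.mul_mem_cancel_right (C.inv_mem this), C.mul_mem_cancel_left this]
    have e1 : (C.subgroupOf N).index = 2 := e
    have h1 : x * n * x⁻¹ * n⁻¹ ∈ C := by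
      have := (Subgroup.mul_mem_iff_of_index_two e1 (a := ⟨_, hN.conj_mem n hn x⟩)
        (b := ⟨n⁻¹, N.inv_mem hn⟩)).2 (by simp [Subgroup.mem_subgroupOf, hxC])
      exact this
    have h3 : n * n ∈ C := Subgroup.mul_self_mem_of_index_two e1 ⟨n, hn⟩
    have h4 : π (x * n * x⁻¹) * π n⁻¹ = π n⁻¹ * π (x * n * x⁻¹) := by
      have := (hπ _).2 ⟨hc _ (hN.conj_mem n hn x) _ (N.inv_mem hn), N.mul_mem (N.mul_mem (N.mul_mem
        (hN.conj_mem n hn x) (N.inv_mem hn)) (N.inv_mem (hN.conj_mem n hn x))) (N.inv_mem (N.inv_mem hn))⟩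
      rw [map_mul, map_mul, map_mul, map_inv π (x * n * x⁻¹), map_inv π n⁻¹] at this
      exact commutatorElement_eq_one_iff_mul_comm.1 this
    have h5 : π n * π n * π x = π x * (π n * π n) := by
      rw [← map_mul]; exact Subgroup.mem_centralizer_singleton_iff.1 h3
    simp only [map_mul, map_inv] at h4
    refine Subgroup.mem_centralizer_singleton_iff.2 (comm_of_comm_fixed (m := p) (n := 2)
      ((Nat.coprime_primes hp Nat.prime_two).2 h2) (by rw [← map_pow, hx, map_one]) ?_ ?_).symm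
    · calc (π x * π n * (π x)⁻¹ * (π n)⁻¹) ^ 2
          = π x * π n * (π x)⁻¹ * ((π n)⁻¹ * (π x * π n * (π x)⁻¹)) * (π n)⁻¹ := by
            rw [sq]; group
        _ = π x * (π n * π n) * (π x)⁻¹ * (π n * π n)⁻¹ := by rw [← h4]; group
        _ = 1 := by rw [← h5]; group
    · have := Subgroup.mem_centralizer_singleton_iff.1 h1
      simp only [map_mul, map_inv] at this
      exact this.symm)
  have i0 : C.relIndex N ≠ 0 := Subgroup.index_ne_zero_of_finite
  -- the injection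
  choose g hg using fun ω : fixedPoints (Subgroup.zpowers x) Ω => exists_smul_eq G ω₀ ω.1
  choose n hn m hm e using fun ω => hdec (g ω)
  have hnC : ∀ ω, n ω ∈ C := fun ω => (hC _ (hn ω)).2 (by
    have h1 : (g ω)⁻¹ * x * g ω ∈ M := hHM (by
      rw [mem_stabilizer_iff, mul_smul, mul_smul, hg, hfix _ ω.2, inv_smul_eq_iff, hg])
    have : (n ω)⁻¹ * x * n ω = m ω * ((g ω)⁻¹ * x * g ω) * (m ω)⁻¹ := by rw [e]; group
    exact this ▸ M.mul_mem (M.mul_mem (hm ω) h1) (M.inv_mem (hm ω)))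
  have hinj : Function.Injective fun z : (N ⧸ C.subgroupOf N) × fixedPoints (Subgroup.zpowers x) Ω =>
      ((z.1.out : N) : G) • z.2.1 := by
    rintro ⟨t, ω⟩ ⟨t', ω'⟩ h
    have h : ((t.out : N) : G) • ω.1 = ((t'.out : N) : G) • ω'.1 := h
    have h1 : (t.out * g ω)⁻¹ * (t'.out * g ω') ∈ M := hHM (by
      rw [mem_stabilizer_iff, mul_smul, inv_smul_eq_iff, mul_smul, mul_smul, hg, hg, h])
    have h3 : (n ω)⁻¹ * ((t.out : G)⁻¹ * t'.out) * n ω' ∈ C := hKC ⟨by
      have : (n ω)⁻¹ * ((t.out : G)⁻¹ * t'.out) * n ω' =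
          m ω * ((t.out * g ω)⁻¹ * (t'.out * g ω')) * (m ω')⁻¹ := by rw [e, e]; group
      exact this ▸ M.mul_mem (M.mul_mem (hm ω) h1) (M.inv_mem (hm ω')),
      N.mul_mem (N.mul_mem (N.inv_mem (hn ω)) (N.mul_mem (N.inv_mem t.out.2) t'.out.2)) (hn ω')⟩
    rw [C.mul_mem_cancel_right (hnC ω'), C.mul_mem_cancel_left (C.inv_mem (hnC ω))] at h3
    obtain rfl : t = t' := by
      rw [← t.out_eq, ← t'.out_eq]
      exact QuotientGroup.eq.2 h3
    rw [Subtype.ext (smul_left_cancel _ h : ω.1 = ω'.1)]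
  have h6 := Nat.card_le_card_of_injective _ hinj
  rw [Nat.card_prod] at h6
  have h7 : 3 ≤ Nat.card (N ⧸ C.subgroupOf N) := by
    change 3 ≤ C.relIndex N
    omega
  exact (Nat.mul_le_mul_right _ h7).trans h6

end CfsgLib.FlavD
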