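import Mathlib
import Cfsg.Agent.Lib.FlavD.Grade
import Cfsg.Agent.Lib.Flavell.TwoA
import Cfsg.Agent.Lib.LAE.CharP
import Cfsg.Agent.Lib.Push.HolNat

/-!
The fixed space of an element of prime order `p ≥ 5` whose conjugates generate a solvable group.
-/

set_option autoImplicit false

namespace CfsgLib.FlavD

open Module MulAction CfsgLib.HH Polynomial Cfsg
open scoped commutatorElement

theorem arith {s c r D u J : ℕ} (hs : 4 ≤ s) (hr : r ≤ c) (h0 : 0 < c)
    (h1 : s * c ^ 2 + r ^ 2 ≤ s * D) (h2 : (c + r) ^ 2 = J * u) (h3 : (s + 1) * D ≤ u * (J + s)) :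
    J ≤ 7 := by
  by_contra h
  obtain ⟨e, rfl⟩ := Nat.exists_eq_add_of_le hr
  obtain ⟨s, rfl⟩ := Nat.exists_eq_add_of_le hs
  obtain ⟨J, rfl⟩ := Nat.exists_eq_add_of_le (show 8 ≤ J by omega)
  have h4 : (4 + s + 1) * (r + e + r) ^ 2 ≤ 4 * ((4 + s) * (r + e) ^ 2 + r ^ 2) :=
    Nat.le.intro (k := e * ((11 + 3 * s) * (r + e) + (1 + s) * r)) (by ring)
  have h5 : (4 + s + 1) * (4 + s + 1) * (8 + J) * ((8 + J) * u) ≤
      4 * (4 + s) * (8 + J + (4 + s)) * ((8 + J) * u) := by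
    calc _ = (4 + s + 1) * (8 + J) * ((4 + s + 1) * (r + e + r) ^ 2) := by rw [h2]; ring
      _ ≤ (4 + s + 1) * (8 + J) * (4 * ((4 + s) * D)) :=
        Nat.mul_le_mul_left _ (h4.trans (Nat.mul_le_mul_left _ h1))
      _ = 4 * (4 + s) * (8 + J) * ((4 + s + 1) * D) := by ring
      _ ≤ 4 * (4 + s) * (8 + J) * (u * (8 + J + (4 + s))) := Nat.mul_le_mul_left _ h3
      _ = _ := by ring
  have h6 := Nat.le_of_mul_le_mul_right h5 (by rw [← h2]; positivity)
  have h7 : (4 + s + 1) * (4 + s + 1) * (8 + J) = 4 * (4 + s) * (8 + J + (4 + s)) +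
      (8 + (16 * s + 4 * s ^ 2 + 9 * J + 6 * s * J + s ^ 2 * J)) := by ring
  omega

variable {F : Type*} [Field F] {V : Type*} [AddCommGroup V] [Module F V] [FiniteDimensional F V]

theorem lower [IsAlgClosed F] (T : Module.End F V) {s : ℕ} (hT : T ^ (s + 1) = 1) :
    s * finrank F (LinearMap.ker (T - 1)) ^ 2 + (finrank F V - finrank F (LinearMap.ker (T - 1))) ^ 2 ≤
      s * finrank F (commutant T) := by
  have h1 : (X - C 1 : F[X]) * ∑ i ∈ Finset.range (s + 1), X ^ i = X ^ (s + 1) - C 1 := by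
    rw [C_1, mul_geom_sum]
  have h2 : (X ^ (s + 1) - C 1 : F[X]).Monic := monic_X_pow_sub_C _ (Nat.succ_ne_zero s)
  have h3 := (monic_X_sub_C (1 : F)).of_mul_monic_left (h1 ▸ h2)
  have h4 := (monic_X_sub_C (1 : F)).natDegree_mul h3
  rw [h1, natDegree_X_pow_sub_C, natDegree_X_sub_C] at h4
  obtain ⟨l', hl'⟩ := exists_prod_X_sub_C s _ h3 (by omega)
  let l : ℕ → F := fun i => Nat.casesOn i 1 l'
  have h5 : aeval T (∏ j ∈ Finset.range (s + 1), (X - C (l j))) = 0 := by
    rw [Finset.prod_range_succ', mul_comm]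
    change aeval T ((X - C 1) * ∏ j ∈ Finset.range s, (X - C (l' j))) = 0
    rw [← hl', h1]
    simp [hT]
  have h6 := kerFilt_eq_top T l (s + 1) h5 (s + 1) le_rfl
  have h7 := sum_sq_le_finrank_commutant T (s + 1) (kerFilt T l) (kerFilt_mono T l)
    (kerFilt_zero T l) h6 l (kerFilt_step T l)
  have h8 := sum_finrank_sub (kerFilt T l) (kerFilt_mono T l) (kerFilt_zero T l) (s + 1)
  have h9 : finrank F (kerFilt T l (0 + 1)) - finrank F (kerFilt T l 0) =
      finrank F (LinearMap.ker (T - 1)) := by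
    rw [zero_add, kerFilt_one, kerFilt_zero, finrank_bot, Nat.sub_zero, show l 0 = 1 from rfl, one_smul]
  rw [Finset.sum_range_succ', h9] at h7 h8
  rw [h6, finrank_top] at h8
  have h10 := sq_sum_le_card_mul_sum_sq (s := Finset.range s)
    (f := fun i => finrank F (kerFilt T l (i + 1 + 1)) - finrank F (kerFilt T l (i + 1)))
  rw [Finset.card_range, Nat.cast_id] at h10
  rw [← h8, Nat.add_sub_cancel]
  nlinarith

variable {G : Type*} [Group G]

omit [FiniteDimensional F V] in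
theorem fixSp_zpowers (ρ : Representation F G V) (x : G) :
    fixSp ρ (Subgroup.zpowers x) = LinearMap.ker (ρ x - 1) := by
  ext v
  rw [mem_fixSp_zpowers, LinearMap.mem_ker, LinearMap.sub_apply, sub_eq_zero]
  rfl

omit [FiniteDimensional F V] in
theorem finrank_map (ρ : Representation F G V) (g : G) (U : Submodule F V) :
    finrank F (U.map (ρ g)) = finrank F U :=
  (Submodule.equivMapOfInjective (ρ g) (ρ.apply_bijective g).1 U).finrank_eq.symm

/-- A normal subgroup acts by commuting operators which are not all scalars. -/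
theorem abel [IsAlgClosed F] [Nontrivial V] [Finite G] [Group.IsSolvable G]
    (ρ : Representation F G V) {x : G} {p : ℕ} (hp : p.Prime) (h5 : 5 ≤ p) (hx : orderOf x = p)
    (hgen : Subgroup.normalClosure ({x} : Set G) = ⊤)
    (hirr : ∀ U : Submodule F V, (∀ g, ∀ v ∈ U, ρ g v ∈ U) → U = ⊥ ∨ U = ⊤)
    (E : Subgroup G) [E.Normal] (hE : ∀ a ∈ E, ∀ b ∈ E, ρ a * ρ b = ρ b * ρ a)
    (hns : ¬ E ≤ scal ρ) : 2 * finrank F (LinearMap.ker (ρ x - 1)) < finrank F V := by
  letI : MulAction G (Submodule F V) :=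
    { smul := fun g U => U.map (ρ g)
      one_smul := fun U => by
        change U.map (ρ 1) = U
        rw [map_one]; exact Submodule.map_id U
      mul_smul := fun g h U => by
        change U.map (ρ (g * h)) = (U.map (ρ h)).map (ρ g)
        rw [map_mul, Module.End.mul_eq_comp, Submodule.map_comp] }
  obtain ⟨χ₀, h0⟩ := exists_wt_ne_bot ρ E hE
  have hΩ : ∀ U : orbit G (wt ρ E χ₀), ∃ χ, wt ρ E χ = U.1 := by
    rintro ⟨_, g, rfl⟩
    exact ⟨_, (map_wt ρ (Subgroup.le_normalizer_of_normal (Subgroup.mem_top g)) χ₀).symm⟩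
  choose χ hχ using hΩ
  have hinj : Function.Injective χ := fun U U' e => Subtype.ext (by rw [← hχ, ← hχ, e])
  have hi : iSupIndep fun U : orbit G (wt ρ E χ₀) => U.1 := by
    have := (wt_indep ρ E).comp hinj
    rwa [show wt ρ E ∘ χ = fun U => U.1 from funext hχ] at this
  have hW : ∀ (g : G) (U : orbit G (wt ρ E χ₀)), ∀ v ∈ U.1, ρ g v ∈ (g • U).1 :=
    fun g U v hv => Submodule.mem_map_of_mem hv
  have hs : (⨆ U : orbit G (wt ρ E χ₀), U.1) = ⊤ := by
    refine (hirr _ fun g v hv => ?_).resolve_left fun e => h0 (eq_bot_iff.2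
      ((le_iSup (fun U : orbit G (wt ρ E χ₀) => U.1) ⟨_, mem_orbit_self _⟩).trans e.le))
    refine (iSup_le (a := Submodule.comap (ρ g) (⨆ U : orbit G (wt ρ E χ₀), U.1)) fun U v hv => ?_) hv
    exact Submodule.mem_iSup_of_mem (g • U) (hW g U v hv)
  haveI : Finite (orbit G (wt ρ E χ₀)) := Set.finite_range _
  haveI : Nontrivial (orbit G (wt ρ E χ₀)) := by
    by_contra h
    rw [not_nontrivial_iff_subsingleton] at h
    refine hns fun a ha => mem_scal_of_eq_smul (c := χ₀ ⟨a, ha⟩) (LinearMap.ext fun v => ?_)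
    have : ⊤ ≤ wt ρ E χ₀ := hs.ge.trans (iSup_le fun U =>
      (congrArg Subtype.val (Subsingleton.elim U ⟨_, mem_orbit_self _⟩)).le)
    exact mem_wt.1 (this Submodule.mem_top) ⟨a, ha⟩
  obtain ⟨h1, h2⟩ := grade ρ hp ((Nat.card_zpowers x).trans hx) _ hi hs (fun g _ => hW g)
    (m := finrank F (wt ρ E χ₀)) (by rintro ⟨_, g, rfl⟩; exact finrank_map ρ g _)
  have h3 := fp (Ω := orbit G (wt ρ E χ₀)) hp (by omega) (hx ▸ pow_orderOf_eq_one x) hgen
  rw [fixSp_zpowers] at h2
  have h4 : 0 < finrank F V := finrank_pos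
  obtain ⟨s, rfl⟩ := Nat.exists_eq_add_of_le h5
  rw [show 5 + s - 1 = 4 + s by omega] at h2
  by_contra h
  have h6 := Nat.mul_le_mul_left (finrank F (wt ρ E χ₀) * (4 + s)) h3
  nlinarith

/-- The index of the centralizer of `y` in a chief factor with no central elements. -/
theorem eight_le {H : Type*} [Group H] [Finite H] [Group.IsSolvable H] {y : H} {p q : ℕ}
    (hp : p.Prime) (h5 : 5 ≤ p) (hy : y ^ p = 1) (hgen : Subgroup.normalClosure ({y} : Set H) = ⊤)
    (hq : q.Prime) {B : Subgroup H} [B.Normal] (hB : IsElementaryAbelian q B) (h0 : B ≠ ⊥)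
    (hz : B ⊓ Subgroup.centralizer ((⊤ : Subgroup H) : Set H) = ⊥) :
    8 ≤ (Subgroup.centralizer (Subgroup.zpowers y : Set H)).relIndex B := by
  haveI : Fact q.Prime := ⟨hq⟩
  haveI : Fact p.Prime := ⟨hp⟩
  have hBq := PLocal.elemAb_isPGroup hB
  set C := Subgroup.centralizer (Subgroup.zpowers y : Set H) with hC
  have htop : ∀ K : Subgroup H, K.Normal → y ∈ K → ⊤ ≤ K := fun K _ h =>
    hgen.ge.trans (Subgroup.normalClosure_le_normal (Set.singleton_subset_iff.2 h))
  have h1 : C.relIndex B ≠ 1 := fun e => h0 (eq_bot_iff.2 ((le_inf le_rfl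
    (Subgroup.le_centralizer_iff.1 (htop _ inferInstance (Subgroup.le_centralizer_iff.1
      (Subgroup.relIndex_eq_one.1 e) (Subgroup.mem_zpowers y))))).trans hz.le))
  have hA : IsPGroup p (Subgroup.zpowers y) := fun g => ⟨1, Subtype.ext (by
    obtain ⟨_, k, rfl⟩ := g
    change (y ^ k) ^ p ^ 1 = 1
    rw [pow_one, ← zpow_natCast, ← zpow_mul, mul_comm, zpow_mul, zpow_natCast, hy, one_zpow])⟩
  obtain ⟨a, ha⟩ := hBq.index (C.subgroupOf B)
  change C.relIndex B = _ at ha
  by_contra h8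
  by_cases hpq : q = p
  · subst hpq
    have ha1 : C.relIndex B = q := by
      rcases a with _ | _ | a
      · exact (h1 ha).elim
      · simpa using ha
      · rw [ha, pow_succ, pow_succ] at h8
        have : 1 * 5 * 5 ≤ q ^ a * q * q := Nat.mul_le_mul (Nat.mul_le_mul
          (Nat.pos_of_ne_zero (pow_ne_zero a hq.ne_zero)) h5) h5
        omega
    obtain ⟨n, hn⟩ := LAE.exists_iterCommutator_eq_bot_of_isPGroup hBq hA
      Subgroup.le_normalizer_of_normal
    obtain ⟨v, hv, hv', hv''⟩ := LAE.exists_mem_not_mem_commutator_mem (U := B ⊓ C)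
      Subgroup.le_normalizer_of_normal hn fun e => h1 (Subgroup.relIndex_eq_one.2 (e.trans inf_le_right))
    have hn₀ : B ≤ Subgroup.normalizer ((B ⊓ C : Subgroup H) : Set H) :=
      (PLocal.elemAb_le_centralizer hB).trans ((Subgroup.centralizer_le (SetLike.coe_subset_coe.2
        inf_le_left)).trans (Subgroup.centralizer_le_normalizer _))
    have h2 : B ⊓ C ≤ Push.cmod B (B ⊓ C) (Subgroup.zpowers y) := fun b hb =>
      (Push.mem_cmod hn₀).2 ⟨hb.1, fun g hg => by
        rw [commutatorElement_eq_one_iff_mul_comm.2 (hb.2 g hg)]; exact one_mem _⟩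
    have h3 := Subgroup.relIndex_mul_relIndex _ _ _ h2 Push.cmod_le
    rw [Subgroup.inf_relIndex_left, ha1] at h3
    have h4 : B ≤ Push.cmod B (B ⊓ C) (Subgroup.zpowers y) := by
      rcases (Nat.dvd_prime hq).1 (Dvd.intro _ h3) with e | e
      · exact (hv' (Subgroup.relIndex_eq_one.1 e ((Push.mem_cmod hn₀).2 ⟨hv, fun g hg => by
          rw [← commutatorElement_inv]; exact inv_mem (hv'' g hg)⟩))).elim
      · rw [e] at h3
        exact Subgroup.relIndex_eq_one.1 (Nat.eq_of_mul_eq_mul_left hq.pos (h3.trans (mul_one q).symm))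
    have h6 := Flavell.quadStable_of_isSolvable (G := H) h5 B hBq _ hA inferInstance
      (Subgroup.commutator_eq_bot_iff_le_centralizer.2
        (((Push.le_cmod_iff hn₀).1 h4).2.trans inf_le_right))
    have h7 := htop ((pCore q _).comap (QuotientGroup.mk' (Subgroup.centralizer (B : Set H))))
      inferInstance (h6 (Subgroup.mem_map_of_mem _ (Subgroup.mem_zpowers y)))
    obtain ⟨k, hk⟩ := LAE.exists_iterCommutator_eq_bot (B := ⊤) hBq Subgroup.le_normalizer_of_normal
      (LAE.pResOf_le_of_forall_pow_mem fun g hg => by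
        obtain ⟨k, hk⟩ := LAE.isPGroup_pCore ⟨_, h7 hg⟩
        exact ⟨k, (QuotientGroup.eq_one_iff _).1 (congrArg Subtype.val hk)⟩)
    exact LAE.inf_centralizer_ne_bot_of_iterCommutator Subgroup.le_normalizer_of_normal hk h0 hz
  · letI : MulAction H B := MulAction.compHom B (MulAut.conjNormal (H := B))
    have h2 := hA.card_modEq_card_fixedPoints B
    have h3 : Nat.card (fixedPoints (Subgroup.zpowers y) B) = Nat.card (C.subgroupOf B) := by
      congr 2
      ext b
      exact ⟨fun h g hg => mul_inv_eq_iff_eq_mul.1 (congrArg Subtype.val (h ⟨g, hg⟩)),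
        fun h g => Subtype.ext (mul_inv_eq_iff_eq_mul.2 (h g g.2))⟩
    obtain ⟨b, hb⟩ := (hBq.to_subgroup (C.subgroupOf B)).exists_card_eq
    rw [h3, ← (C.subgroupOf B).index_mul_card, hb] at h2
    have h4 : C.relIndex B ≡ 1 [MOD p] := Nat.ModEq.cancel_right_of_coprime (c := q ^ b)
      (Nat.Coprime.pow_right _ ((Nat.coprime_primes hp hq).2 (Ne.symm hpq))) (by rwa [one_mul])
    have h6 : 1 ≤ C.relIndex B := Nat.pos_of_ne_zero Subgroup.index_ne_zero_of_finite
    have h7 := (Nat.modEq_iff_dvd' h6).1 h4.symm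
    have h9 := Nat.le_of_dvd (by omega) h7
    have h10 : C.relIndex B = 6 ∨ C.relIndex B = 7 := by omega
    rcases h10 with e | e
    · rw [ha] at e
      have e2 := (Nat.prime_dvd_prime_iff_eq Nat.prime_two hq).1
        (Nat.prime_two.dvd_of_dvd_pow (n := a) (by rw [e]; norm_num))
      have e3 := (Nat.prime_dvd_prime_iff_eq Nat.prime_three hq).1
        (Nat.prime_three.dvd_of_dvd_pow (n := a) (by rw [e]; norm_num))
      omega
    · rw [e] at h7 h9
      have : p = 5 ∨ p = 6 := by omega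
      rcases this with rfl | rfl
      · norm_num at h7
      · norm_num at hp

omit [FiniteDimensional F V] in
theorem mem_of_avg (ρ : Representation F G V) (P : Subgroup G) [Finite P]
    (hcomm : ∀ a ∈ P, ∀ b ∈ P, a * b * a⁻¹ * b⁻¹ ∈ scal ρ)
    (hcent : ∀ a ∈ P, (∀ b ∈ P, ρ a * ρ b = ρ b * ρ a) → a ∈ scal ρ)
    (hchar : (Nat.card P : F) ≠ 0) (U : Submodule F (Module.End F V))
    (hU : ∀ ψ : Module.End F V, (∀ b ∈ P, ρ b * ψ = ψ * ρ b) → ∀ g ∈ P, ψ * ρ g ∈ U)
    (φ : Module.End F V) : φ ∈ U := by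
  classical
  haveI := Fintype.ofFinite P
  have hS : ∑ g : P, avg ρ P (φ * ρ (g : G)⁻¹) * ρ g ∈ U :=
    Submodule.sum_mem _ fun g _ => hU _ (fun b hb => avg_comm ρ P (φ * ρ (g : G)⁻¹) hb) g g.2
  have h1 : ∑ g : P, avg ρ P (φ * ρ (g : G)⁻¹) * ρ g =
      ∑ y : P, ρ y * φ * avg ρ P (ρ (y : G)⁻¹) := by
    simp only [avg_apply, Finset.sum_mul, Finset.mul_sum]
    rw [Finset.sum_comm]
    refine Finset.sum_congr rfl fun y _ => ?_
    refine Fintype.sum_equiv (Equiv.inv P) _ _ fun g => ?_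
    simp [mul_assoc]
  have h2 : ∀ y : P, ρ y * φ * avg ρ P (ρ (y : G)⁻¹) =
      if (y : G) ∈ scal ρ then (Nat.card P : F) • φ else 0 := by
    intro y
    split_ifs with hy
    · rw [avg_scal ρ P (inv_mem hy), mul_smul_comm, scal_comm hy, mul_assoc, ← map_mul]; simp
    · rw [avg_eq_zero ρ P hcomm hcent (inv_mem y.2) (fun h => hy (by simpa using inv_mem h))]
      simp
  rw [h1, Finset.sum_congr rfl fun y _ => h2 y, ← Finset.sum_filter, Finset.sum_const,
    ← Nat.cast_smul_eq_nsmul F, smul_smul] at hS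
  exact (Submodule.smul_mem_iff _ (mul_ne_zero (card_filter_scal_ne_zero ρ P hchar) hchar)).1 hS

omit [FiniteDimensional F V] in
theorem cast_ne_zero [Nontrivial V] (ρ : Representation F G V) {a b : G} {q : ℕ} (hq : q.Prime)
    (h1 : a * b * a⁻¹ * b⁻¹ ∈ scal ρ) (h2 : a ^ q ∈ scal ρ) (h3 : ρ a * ρ b ≠ ρ b * ρ a) :
    (q : F) ≠ 0 := fun h => by
  haveI : Fact q.Prime := ⟨hq⟩
  haveI := (CharP.charP_iff_prime_eq_zero (R := F) hq).2 h
  obtain ⟨c, hc⟩ := h1
  have h4 : ρ a * ρ b = (c : F) • (ρ b * ρ a) := by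
    rw [← map_mul, show a * b = a * b * a⁻¹ * b⁻¹ * (b * a) by group, map_mul, hc, map_mul]; simp
  have h5 : ∀ n : ℕ, ρ (a ^ n) * ρ b = (c : F) ^ n • (ρ b * ρ (a ^ n)) := fun n => by
    induction n with
    | zero => simp
    | succ n ih =>
      rw [pow_succ', map_mul, mul_assoc, ih, mul_smul_comm, ← mul_assoc, h4, smul_mul_assoc,
        smul_smul, pow_succ, mul_assoc]
  have h6 := h5 q
  rw [scal_comm h2, ← sub_eq_zero, ← neg_eq_zero, neg_sub] at h6
  nth_rewrite 2 [← one_smul F (ρ b * ρ (a ^ q))] at h6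
  rw [← sub_smul, ← one_pow q, ← sub_pow_char, smul_eq_zero, ← map_mul] at h6
  rcases h6 with h6 | h6
  · rw [sub_eq_zero.1 (pow_eq_zero_iff hq.ne_zero |>.1 h6), one_smul] at h4
    exact h3 h4
  · exact ((Group.isUnit _).map ρ).ne_zero h6

/-- A chief factor over the scalars which does not act by commuting operators. -/
theorem nonabel [IsAlgClosed F] [Nontrivial V] [Finite G] [Group.IsSolvable G]
    (ρ : Representation F G V) [(scal ρ).Normal] {x : G} {p q : ℕ} (hp : p.Prime) (h5 : 5 ≤ p)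
    (hx : orderOf x = p) (hgen : Subgroup.normalClosure ({x} : Set G) = ⊤) (hq : q.Prime)
    {B : Subgroup (G ⧸ scal ρ)} [B.Normal] (hB : IsElementaryAbelian q B) (h0 : B ≠ ⊥)
    (hmin : ∀ M : Subgroup (G ⧸ scal ρ), M.Normal → M ≤ B → M = ⊥ ∨ M = B)
    (hE : ¬ ∀ a ∈ B.comap (QuotientGroup.mk' (scal ρ)), ∀ b ∈ B.comap (QuotientGroup.mk' (scal ρ)),
      ρ a * ρ b = ρ b * ρ a) : 2 * finrank F (LinearMap.ker (ρ x - 1)) < finrank F V := by
  haveI : Fact q.Prime := ⟨hq⟩
  set π := QuotientGroup.mk' (scal ρ) with hπ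
  have hπs : Function.Surjective π := QuotientGroup.mk'_surjective _
  have hπ1 : ∀ a, π a = 1 ↔ a ∈ scal ρ := fun a => QuotientGroup.eq_one_iff a
  set E := B.comap π with hEd
  have lift : ∀ a b, π a = π b → ∃ c : Fˣ, ρ a = (c : F) • ρ b := fun a b h => by
    obtain ⟨c, hc⟩ := (hπ1 (a * b⁻¹)).1 (by rw [map_mul, map_inv, h, mul_inv_cancel])
    exact ⟨c, by rw [show a = a * b⁻¹ * b by group, map_mul, hc]; simp⟩
  have lc : ∀ a b (φ : Module.End F V), π a = π b → ρ b * φ = φ * ρ b → ρ a * φ = φ * ρ a :=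
    fun a b φ h h' => by
      obtain ⟨c, hc⟩ := lift a b h
      rw [hc, smul_mul_assoc, h', mul_smul_comm]
  have hcomm : ∀ a ∈ E, ∀ b ∈ E, a * b * a⁻¹ * b⁻¹ ∈ scal ρ := fun a ha b hb => (hπ1 _).1 (by
    simp only [map_mul, map_inv]
    rw [PLocal.elemAb_le_centralizer hB hb _ ha]; group)
  have hcent : ∀ a ∈ E, (∀ b ∈ E, ρ a * ρ b = ρ b * ρ a) → a ∈ scal ρ := by
    let Z : Subgroup G :=
      { carrier := {a | a ∈ E ∧ ∀ b ∈ E, ρ a * ρ b = ρ b * ρ a}
        one_mem' := ⟨one_mem _, by simp⟩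
        mul_mem' := fun {a a'} h h' => ⟨E.mul_mem h.1 h'.1, fun b hb => by
          rw [map_mul, mul_assoc, h'.2 b hb, ← mul_assoc, h.2 b hb, mul_assoc]⟩
        inv_mem' := fun {a} h => ⟨E.inv_mem h.1, fun b hb => by
          calc ρ a⁻¹ * ρ b = ρ a⁻¹ * (ρ b * ρ a) * ρ a⁻¹ := by simp [mul_assoc, ← map_mul]
            _ = ρ b * ρ a⁻¹ := by rw [← h.2 b hb]; simp [← mul_assoc, ← map_mul]⟩ }
    have hZ : Z.Normal := ⟨fun a h g => ⟨Subgroup.Normal.conj_mem inferInstance a h.1 g, fun b hb => by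
      have := h.2 (g⁻¹ * b * g⁻¹⁻¹) (Subgroup.Normal.conj_mem inferInstance b hb g⁻¹)
      rw [← map_mul, ← map_mul] at this ⊢
      rw [show g * a * g⁻¹ * b = g * (a * (g⁻¹ * b * g⁻¹⁻¹)) * g⁻¹ by group, map_mul, map_mul, this,
        ← map_mul, ← map_mul]
      congr 1; group⟩⟩
    intro a ha h
    rcases hmin (Z.map π) (hZ.map π hπs) (Subgroup.map_le_iff_le_comap.2 fun _ h => h.1) with e | e
    · exact (hπ1 a).1 (e.le (Subgroup.mem_map_of_mem π (show a ∈ Z from ⟨ha, h⟩)))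
    · refine (hE fun a ha b hb => ?_).elim
      obtain ⟨z, hz, e'⟩ := e.ge ha
      exact lc a z _ e'.symm (hz.2 b hb)
  have hz : B ⊓ Subgroup.centralizer ((⊤ : Subgroup (G ⧸ scal ρ)) : Set (G ⧸ scal ρ)) = ⊥ := by
    refine eq_bot_iff.2 fun β hβ => ?_
    obtain ⟨b, rfl⟩ := hπs β
    rcases hmin (Subgroup.zpowers (π b)) ⟨fun n hn g => by
      rw [(Subgroup.zpowers_le.2 hβ.2 : _ ≤ Subgroup.centralizer _) hn g (Subgroup.mem_top g),
        mul_inv_cancel_right]
      exact hn⟩ (Subgroup.zpowers_le.2 hβ.1) with e | e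
    · exact e.le (Subgroup.mem_zpowers _)
    · refine (hπ1 b).2 (hcent b hβ.1 fun a ha => ?_)
      obtain ⟨k, hk⟩ := e.ge ha
      refine (lc a (b ^ k) _ (by rw [map_zpow]; exact hk.symm) ?_).symm
      rw [← map_mul, ← map_mul, (Commute.refl b).zpow_left k]
  have hJ := eight_le hp h5 (y := π x) (by rw [← map_pow, ← hx, pow_orderOf_eq_one, map_one])
    (by rw [← Set.image_singleton, ← Subgroup.map_normalClosure _ _ hπs, hgen,
      Subgroup.map_top_of_surjective _ hπs]) hq hB h0 hz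
  have hpow : ∀ a ∈ E, a ^ q ∈ scal ρ := fun a ha =>
    (hπ1 _).1 (by rw [map_pow]; exact hB.2 _ ha)
  have hqF : (q : F) ≠ 0 := by
    push Not at hE
    obtain ⟨a, ha, b, hb, h⟩ := hE
    exact cast_ne_zero ρ hq (hcomm a ha b hb) (hpow a ha) h
  obtain ⟨Q, hQ⟩ := LAE.exists_isSylowIn q E
  have hQE : ∀ e ∈ E, ∃ u ∈ Q, π e = π u := fun e he => by
    obtain ⟨r, hr, u, hu, rfl⟩ := hQ.exists_mul he
    exact ⟨u, hu, by rw [map_mul, (hπ1 r).2 (LAE.pResOf_le_of_forall_pow_mem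
      (fun g hg => ⟨1, by rw [pow_one]; exact hpow g hg⟩) hr), one_mul]⟩
  have hQc : ∀ φ : Module.End F V, (∀ b ∈ Q, ρ b * φ = φ * ρ b) → ∀ b ∈ E, ρ b * φ = φ * ρ b :=
    fun φ h b hb => by
      obtain ⟨u, hu, e⟩ := hQE b hb
      exact lc b u φ e (h u hu)
  let τ : Representation F G (Module.End F V) := ρ.linHom ρ
  have hτ : ∀ g φ, τ g φ = ρ g * φ * ρ g⁻¹ := fun g φ => rfl
  have hτ' : ∀ g φ, τ g φ = φ ↔ ρ g * φ = φ * ρ g := fun g φ => by
    rw [hτ]
    refine ⟨fun h => ?_, fun h => ?_⟩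
    · conv_rhs => rw [← h]
      simp [mul_assoc, ← map_mul]
    · rw [h]; simp [mul_assoc, ← map_mul]
  let Wg : G → Submodule F (Module.End F V) := fun b =>
    (fixSp τ E).map (LinearMap.mulRight F (ρ b))
  have w1 : ∀ a b, π a = π b → Wg a ≤ Wg b := by
    rintro a b h _ ⟨ψ, hψ, rfl⟩
    obtain ⟨c, hc⟩ := lift a b h
    exact ⟨(c : F) • ψ, Submodule.smul_mem _ _ hψ, by simp [hc]⟩
  have w2 : ∀ g b, ∀ φ ∈ Wg b, τ g φ ∈ Wg (g * b * g⁻¹) := by
    rintro g b _ ⟨ψ, hψ, rfl⟩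
    refine ⟨τ g ψ, apply_mem_fixSp (Subgroup.le_normalizer_of_normal (Subgroup.mem_top g)) hψ, ?_⟩
    simp [hτ, mul_assoc, ← map_mul]
  have hout : ∀ β : B, π (β : G ⧸ scal ρ).out = β := fun β => QuotientGroup.out_eq' _
  have houtE : ∀ β : B, (β : G ⧸ scal ρ).out ∈ E := fun β => by
    rw [hEd, Subgroup.mem_comap, hout]; exact β.2
  choose χ hχ using fun (β : B) (e : E) => lift (e * (β : G ⧸ scal ρ).out * (e : G)⁻¹)
    (β : G ⧸ scal ρ).out (by
      rw [← mul_inv_eq_one, ← map_inv, ← map_mul, hπ1]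
      exact hcomm e e.2 _ (houtE β))
  have hinj : Function.Injective fun (β : B) (e : E) => (χ β e : F) := fun β β' h => by
    have := hcent _ (E.mul_mem (E.inv_mem (houtE β)) (houtE β')) fun e he => by
      have h1 := hχ β ⟨e, he⟩
      have h2 := hχ β' ⟨e, he⟩
      rw [← show (χ β ⟨e, he⟩ : F) = χ β' ⟨e, he⟩ from congrFun h ⟨e, he⟩] at h2
      generalize (β : G ⧸ scal ρ).out = b at h1 h2 ⊢
      generalize (β' : G ⧸ scal ρ).out = b' at h2 ⊢
      refine ((Group.isUnit (e * b * e⁻¹)).map ρ).mul_left_cancel ?_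
      rw [← map_mul ρ e, ← map_mul ρ _ (e * _), show e * b * e⁻¹ * (e * (b⁻¹ * b')) =
        e * b' * e⁻¹ * e by group, map_mul _ _ e, h1, h2, smul_mul_assoc, smul_mul_assoc]
      simp [← mul_assoc, ← map_mul]
    rw [← hπ1, map_mul, map_inv, hout, hout, inv_mul_eq_one] at this
    exact Subtype.ext this
  have hi : iSupIndep fun β : B => Wg (β : G ⧸ scal ρ).out := by
    refine ((wt_indep τ E).comp hinj).mono ?_
    rintro β _ ⟨ψ, hψ, rfl⟩
    refine mem_wt.2 fun e => ?_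
    have h1 := (hτ' _ _).1 (mem_fixSp.1 hψ e e.2)
    rw [LinearMap.mulRight_apply, hτ, ← mul_assoc, h1, mul_assoc, mul_assoc, ← map_mul, ← map_mul,
      ← mul_assoc, hχ, mul_smul_comm]
  have hs : (⨆ β : B, Wg (β : G ⧸ scal ρ).out) = ⊤ := by
    obtain ⟨k, hk⟩ := hQ.isPGroup.exists_card_eq
    refine eq_top_iff.2 fun φ _ => mem_of_avg ρ Q (fun a ha b hb => hcomm a (hQ.le ha) b (hQ.le hb))
      (fun a ha h => hcent a (hQ.le ha) fun b hb => (hQc _ (fun u hu => (h u hu).symm) b hb).symm)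
      (by rw [hk, Nat.cast_pow]; exact pow_ne_zero _ hqF) _ (fun ψ hψ g hg => ?_) φ
    exact Submodule.mem_iSup_of_mem (⟨π g, hQ.le hg⟩ : B) (w1 g _ (hout ⟨π g, hQ.le hg⟩).symm
      ⟨ψ, mem_fixSp.2 fun e he => (hτ' _ _).2 (hQc ψ hψ e he), rfl⟩)
  letI : MulAction G B := MulAction.compHom B ((MulAut.conjNormal (H := B)).comp π)
  have hsm : ∀ (g : G) (β : B), ((g • β : B) : G ⧸ scal ρ) = π g * β * (π g)⁻¹ := fun _ _ => rfl
  obtain ⟨h1, h2⟩ := grade τ hp ((Nat.card_zpowers x).trans hx) _ hi hs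
    (fun g _ β φ hφ => w1 _ _ (by rw [hout, hsm, map_mul, map_mul, map_inv, hout]) (w2 g _ φ hφ))
    (m := finrank F (fixSp τ E)) fun β => (Submodule.equivMapOfInjective _
      (fun _ _ h => ((Group.isUnit _).map ρ).mul_right_cancel h) _).finrank_eq.symm
  set C := Subgroup.centralizer (Subgroup.zpowers (π x) : Set (G ⧸ scal ρ))
  have h3 : Nat.card (fixedPoints (Subgroup.zpowers x) B) = Nat.card (C.subgroupOf B) := by
    congr 2
    ext β
    refine ⟨fun h g hg => ?_, fun h g => Subtype.ext (mul_inv_eq_iff_eq_mul.2 (h _ ?_))⟩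
    · obtain ⟨k, rfl⟩ := hg
      have := congrArg Subtype.val (h ⟨x ^ k, k, rfl⟩)
      have h3 : π (x ^ k) * β = β * π (x ^ k) := mul_inv_eq_iff_eq_mul.1 this
      rwa [map_zpow] at h3
    · obtain ⟨_, k, rfl⟩ := g
      exact ⟨k, (map_zpow π x k).symm⟩
  have h4 : fixSp τ (Subgroup.zpowers x) = commutant (ρ x) := by
    ext φ
    rw [mem_fixSp_zpowers, mem_commutant, hτ']
  rw [h3, h4, ← (C.subgroupOf B).index_mul_card] at h2
  rw [← (C.subgroupOf B).index_mul_card, finrank_linearMap] at h1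
  obtain ⟨s, rfl⟩ : ∃ s, p = s + 1 := ⟨p - 1, by omega⟩
  have h6 := lower (ρ x) (s := s) (by rw [← map_pow, ← hx, pow_orderOf_eq_one, map_one])
  have h7 := Submodule.finrank_le (LinearMap.ker (ρ x - 1))
  have h8 : 0 < finrank F V := finrank_pos
  by_contra h
  have := arith (J := (C.subgroupOf B).index)
    (u := finrank F (fixSp τ E) * Nat.card (C.subgroupOf B)) (by omega) (by omega) (by omega) h6
    (by rw [Nat.add_sub_cancel' h7, sq, h1]; ring) (h2.trans (by rw [Nat.add_sub_cancel]; exact le_of_eq (by ring)))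
  change C.relIndex B ≤ 7 at this
  omega

theorem irred [IsAlgClosed F] [Nontrivial V] [Finite G] [Group.IsSolvable G]
    (ρ : Representation F G V) {x : G} {p : ℕ} (hp : p.Prime) (h5 : 5 ≤ p) (hx : orderOf x = p)
    (hgen : Subgroup.normalClosure ({x} : Set G) = ⊤)
    (hirr : ∀ U : Submodule F V, (∀ g, ∀ v ∈ U, ρ g v ∈ U) → U = ⊥ ∨ U = ⊤) (h1 : ρ x ≠ 1) :
    2 * finrank F (LinearMap.ker (ρ x - 1)) < finrank F V := by
  haveI := scal_normal ρ
  by_cases hs : x ∈ scal ρ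
  · obtain ⟨c, hc⟩ := hs
    have : LinearMap.ker (ρ x - 1) = ⊥ := LinearMap.ker_eq_bot'.2 fun v hv => by
      rw [hc, LinearMap.sub_apply, LinearMap.smul_apply, Module.End.one_apply] at hv
      nth_rewrite 2 [← one_smul F v] at hv
      rw [← sub_smul, smul_eq_zero, sub_eq_zero] at hv
      exact hv.resolve_left fun e => h1 (by rw [hc, e, one_smul])
    rw [this, finrank_bot]
    exact finrank_pos
  haveI : Nontrivial (G ⧸ scal ρ) := ⟨(x : G ⧸ scal ρ), 1, fun e => hs ((QuotientGroup.eq_one_iff x).1 e)⟩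
  obtain ⟨q, B, hq, hn, h0, hB, hmin⟩ := Core.exists_elementaryAbelian_minimal_normal (G ⧸ scal ρ)
  by_cases hE : ∀ a ∈ B.comap (QuotientGroup.mk' (scal ρ)),
      ∀ b ∈ B.comap (QuotientGroup.mk' (scal ρ)), ρ a * ρ b = ρ b * ρ a
  · refine abel ρ hp h5 hx hgen hirr _ hE fun h => h0 (eq_bot_iff.2 fun β hβ => ?_)
    obtain ⟨b, rfl⟩ := QuotientGroup.mk'_surjective _ β
    exact (QuotientGroup.eq_one_iff b).2 (h hβ)
  · exact nonabel ρ hp h5 hx hgen hq hB h0 hmin hE

theorem finrank_ker_le (T : Module.End F V) (U : Submodule F V) (h : U ≤ U.comap T) :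
    finrank F (LinearMap.ker (T - 1)) ≤ finrank F (LinearMap.ker (T.restrict h - 1)) +
      finrank F (LinearMap.ker (U.mapQ U T h - 1)) := by
  let f : LinearMap.ker (T - 1) →ₗ[F] LinearMap.ker (U.mapQ U T h - 1) :=
    (U.mkQ ∘ₗ (LinearMap.ker (T - 1)).subtype).codRestrict _ fun v => by
      have : T v = v := sub_eq_zero.1 v.2
      simp [this]
  have hU : ∀ v : LinearMap.ker f, (v.1 : V) ∈ U := fun v =>
    (Submodule.Quotient.mk_eq_zero U).1 (congrArg Subtype.val v.2)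
  let g : LinearMap.ker f →ₗ[F] LinearMap.ker (T.restrict h - 1) :=
    (((LinearMap.ker (T - 1)).subtype ∘ₗ (LinearMap.ker f).subtype).codRestrict U hU).codRestrict _
      fun v => Subtype.ext v.1.2
  have hg : Function.Injective g := fun v w e =>
    Subtype.ext (Subtype.ext (congrArg (fun z => (z.1.1 : V)) e))
  rw [← f.finrank_range_add_finrank_ker, add_comm]
  exact add_le_add (LinearMap.finrank_le_finrank_of_injective hg) (Submodule.finrank_le _)

universe v in
theorem half_aux [IsAlgClosed F] [Finite G] [Group.IsSolvable G] {x : G} {p : ℕ} (hp : p.Prime)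
    (h5 : 5 ≤ p) (hx : orderOf x = p) (hgen : Subgroup.normalClosure ({x} : Set G) = ⊤)
    (N : Subgroup G) [Fintype N] (hN : (Nat.card N : F) ≠ 0) (n : ℕ) :
    ∀ {V : Type v} [AddCommGroup V] [Module F V] [FiniteDimensional F V] [Nontrivial V]
      (ρ : Representation F G V), finrank F V = n → ∑ g : N, ρ g = 0 →
        2 * finrank F (LinearMap.ker (ρ x - 1)) < finrank F V := by
  induction n using Nat.strong_induction_on with
  | _ n ih =>
  intro V _ _ _ _ ρ hn h0
  by_cases hirr : ∀ U : Submodule F V, (∀ g, ∀ v ∈ U, ρ g v ∈ U) → U = ⊥ ∨ U = ⊤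
  · refine irred ρ hp h5 hx hgen hirr fun e => hN ?_
    have h1 : ∀ g, ρ g = 1 := fun g => (hgen.ge.trans (Subgroup.normalClosure_le_normal
      (N := ρ.ker) (Set.singleton_subset_iff.2 e))) (Subgroup.mem_top g)
    simp only [h1, Finset.sum_const, Finset.card_univ, ← Nat.card_eq_fintype_card] at h0
    rw [← Nat.cast_smul_eq_nsmul F, smul_eq_zero] at h0
    exact h0.resolve_right one_ne_zero
  push Not at hirr
  obtain ⟨U, hU, h1, h2⟩ := hirr
  haveI : Nontrivial U := Submodule.nontrivial_iff_ne_bot.2 h1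
  haveI : Nontrivial (V ⧸ U) := Submodule.Quotient.nontrivial_iff.2 h2
  have h3 := U.finrank_quotient_add_finrank
  have h4 : 0 < finrank F U := finrank_pos
  have h6 : 0 < finrank F (V ⧸ U) := finrank_pos
  have h7 := ih _ (by omega) (ρ.subrepresentation U hU) rfl (LinearMap.ext fun v => Subtype.ext (by
    have := LinearMap.congr_fun h0 v
    rw [LinearMap.sum_apply] at this ⊢
    rw [Submodule.coe_sum]
    exact this))
  have h8 := ih _ (by omega) (ρ.quotient U hU) rfl (LinearMap.ext fun v => by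
    obtain ⟨v, rfl⟩ := U.mkQ_surjective v
    have := congrArg U.mkQ (LinearMap.congr_fun h0 v)
    rw [LinearMap.sum_apply, map_sum] at this
    rw [LinearMap.sum_apply]
    exact this)
  have h9 : _ ≤ finrank F (LinearMap.ker (ρ.subrepresentation U hU x - 1)) +
      finrank F (LinearMap.ker (ρ.quotient U hU x - 1)) := finrank_ker_le (ρ x) U (hU x)
  omega

/-- If a subgroup of order invertible in `F` has no fixed vectors, then the fixed space of `x` has
dimension less than half the dimension. -/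
theorem half [Nontrivial V] [Finite G] [Group.IsSolvable G] (ρ : Representation F G V) {x : G}
    {p : ℕ} (hp : p.Prime) (h5 : 5 ≤ p) (hx : orderOf x = p)
    (hgen : Subgroup.normalClosure ({x} : Set G) = ⊤) (N : Subgroup G)
    (hN : (Nat.card N : F) ≠ 0) (h0 : fixSp ρ N = ⊥) :
    2 * finrank F (LinearMap.ker (ρ x - 1)) < finrank F V := by
  haveI := Fintype.ofFinite N
  have h1 : ∑ g : N, ρ g = 0 := LinearMap.ext fun v => h0.le (mem_fixSp.2 fun a ha => by
    rw [LinearMap.sum_apply, map_sum]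
    exact Fintype.sum_equiv (Equiv.mulLeft (⟨a, ha⟩ : N)) _ _ fun g => by simp)
  let K := AlgebraicClosure F
  have h2 : finrank K (TensorProduct F K V) = finrank F V := finrank_baseChange
  haveI : Nontrivial (TensorProduct F K V) := nontrivial_of_finrank_pos (R := K) (h2 ▸ finrank_pos)
  have h3 := half_aux (F := K) hp h5 hx hgen N
    (fun e => hN ((algebraMap F K).injective (by simpa using e))) _ (baseChangeRep K ρ) rfl
    ((rankDom_baseChangeRep K ρ).sum_eq_zero _ _ h1)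
  have h4 := finrank_range_baseChange_le K (ρ x - 1)
  have h6 := (ρ x - 1).finrank_range_add_finrank_ker
  have h7 := (baseChangeRep K ρ x - 1).finrank_range_add_finrank_ker
  rw [LinearMap.baseChange_sub, LinearMap.baseChange_one, ← baseChangeRep_apply] at h4
  omega

end CfsgLib.FlavD
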