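import Mathlib
import Cfsg.Agent.Lib.FlavD.Dim
import Cfsg.Agent.Lib.Core.Frattini
import Cfsg.Agent.Lib.Core.Fitting
import Cfsg.Agent.Lib.Coprime.Abelian
import Cfsg.Agent.Lib.PLocal.StableClosure

/-!
Maximal solvable subgroups generated by two conjugates of an element of prime order `p ≥ 5`.
-/

set_option autoImplicit false

namespace CfsgLib.FlavD

open Module Subgroup CfsgLib.HH CfsgLib.LAE CfsgLib.PLocal Cfsg
open scoped commutatorElement

variable {G : Type*} [Group G]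

/-- The subgroup generated by `x` and its conjugate under `a`. -/
def gen (x a : G) : Subgroup G := zpowers x ⊔ zpowers (a * x * a⁻¹)

theorem map_gen {G' : Type*} [Group G'] (f : G →* G') (x a : G) :
    (gen x a).map f = gen (f x) (f a) := by
  simp [gen, Subgroup.map_sup]

theorem left_mem_gen (x a : G) : x ∈ gen x a := mem_sup_left (mem_zpowers x)

theorem right_mem_gen (x a : G) : a * x * a⁻¹ ∈ gen x a := mem_sup_right (mem_zpowers _)

theorem gen_le {x a : G} {K : Subgroup G} (h1 : x ∈ K) (h2 : a * x * a⁻¹ ∈ K) : gen x a ≤ K :=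
  sup_le (zpowers_le.2 h1) (zpowers_le.2 h2)

theorem gen_sup {x a v : G} {V : Subgroup G} (hv : v ∈ V) : gen x a ≤ gen x (v * a) ⊔ V :=
  gen_le (mem_sup_left (left_mem_gen _ _)) (by
    rw [show a * x * a⁻¹ = v⁻¹ * (v * a * x * (v * a)⁻¹) * v by group]
    exact mul_mem (mul_mem (mem_sup_right (inv_mem hv)) (mem_sup_left (right_mem_gen _ _)))
      (mem_sup_right hv))

variable [Finite G] {p q r : ℕ} [Fact q.Prime] [Fact r.Prime] {x a : G} {V Q R : Subgroup G}

theorem split [V.Normal] (hV : IsPGroup r V) (hQ : IsPGroup q Q) (hqr : q ≠ r)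
    (hn : gen x a ≤ normalizer (Q : Set G)) (ht : gen x a ⊔ V = ⊤)
    (h0 : V ⊓ centralizer (Q : Set G) = ⊥) {v : G} (hv : v ∈ V) (h : gen x (v * a) ⊓ V = ⊥) :
    ∃ w ∈ V, ∃ w' ∈ V, x * w = w * x ∧ a * x * a⁻¹ * w' = w' * (a * x * a⁻¹) ∧ v = w * w' := by
  have hD : V ⊔ gen x (v * a) = ⊤ := by
    rw [sup_comm]
    exact top_le_iff.1 (ht.ge.trans (sup_le (gen_sup hv) le_sup_right))
  have syl : ∀ X : Subgroup G, IsPGroup q X → V ⊔ X = V ⊔ Q → IsSylowIn q X (V ⊔ Q) := fun X hX e =>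
    ⟨le_sup_right.trans e.le, hX, fun Y hY h1 h2 => le_antisymm (fun y hy => by
      obtain ⟨w, hw, u, hu, rfl⟩ := (mem_sup_iff_of_right_le_normalizer
        le_normalizer_of_normal).1 (e.ge (h2 hy))
      have : w = 1 := (IsPGroup.disjoint_of_ne q r hqr Y V hY hV).le_bot
        ⟨(Y.mul_mem_cancel_right (h1 hu)).1 hy, hw⟩
      rwa [this, one_mul]) h1⟩
  have h1 := inf_sup_of_le_of_le_normalizer (H := gen x (v * a)) (N := V) (K := V ⊔ Q)
    le_normalizer_of_normal le_sup_left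
  rw [hD, inf_top_eq] at h1
  have h2 : IsPGroup q ((V ⊔ Q) ⊓ gen x (v * a) : Subgroup G) := isPGroup_iff_forall_mem.2 fun d hd => by
    obtain ⟨k, hk⟩ := exists_pow_mem_pResOf (p := q) hd.1
    rw [sup_comm, pResOf_sup_of_isPGroup hQ le_normalizer_of_normal] at hk
    exact ⟨k, h.le ⟨(gen x (v * a)).pow_mem hd.2 _, pResOf_le V hk⟩⟩
  obtain ⟨g, hg, e⟩ := (syl Q hQ rfl).exists_conj (syl _ h2 h1.symm)
  obtain ⟨w, hw, u, hu, rfl⟩ := (mem_sup_iff_of_right_le_normalizer le_normalizer_of_normal).1 hg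
  rw [conjS_mul, conjS_eq_of_mem hu] at e
  have h3 : ∀ d ∈ gen x (v * a), w⁻¹ * d * w ∈ normalizer (Q : Set G) := fun d hd => by
    rw [← mem_conjS, conjS_normalizer, e]
    exact le_normalizer_inf ((le_top.trans ht.ge).trans (sup_le (le_normalizer_sup
      le_normalizer_of_normal hn) (le_sup_left.trans le_normalizer))) le_normalizer hd
  have h4 : ∀ z ∈ gen x a, ∀ u ∈ V, u⁻¹ * z * u ∈ normalizer (Q : Set G) → z * u = u * z := by
    intro z hz u hu h
    have h5 : z⁻¹ * u⁻¹ * z⁻¹⁻¹ * u ∈ V := V.mul_mem (Normal.conj_mem ‹_› _ (V.inv_mem hu) _) hu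
    have h6 : z⁻¹ * u⁻¹ * z⁻¹⁻¹ * u ∈ normalizer (Q : Set G) := by
      simpa [mul_assoc] using mul_mem (inv_mem (hn hz)) h
    have h7 : z⁻¹ * u⁻¹ * z⁻¹⁻¹ * u = 1 := h0.le ⟨h5, commutator_eq_bot_iff_le_centralizer.1
      (eq_bot_iff.2 ((le_inf (commutator_le_right_of_le_normalizer (zpowers_le.2 h6))
        ((commutator_mono (zpowers_le.2 h5) le_rfl).trans (commutator_le_left _ _))).trans
        (IsPGroup.disjoint_of_ne q r hqr Q V hQ hV).le_bot)) (mem_zpowers _)⟩
    calc z * u = u * z * (z⁻¹ * u⁻¹ * z⁻¹⁻¹ * u) := by group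
      _ = u * z := by rw [h7, mul_one]
  have h8 := V.mul_mem (V.inv_mem hv) hw
  refine ⟨w, hw, _, V.inv_mem h8, h4 x (left_mem_gen _ _) w hw (h3 x (left_mem_gen _ _)),
    (Commute.inv_right (h4 _ (right_mem_gen _ _) _ h8 ?_)).eq, by group⟩
  simpa [mul_assoc] using h3 _ (right_mem_gen x (v * a))

theorem exists_inf_ne_bot [V.Normal] (hp : p.Prime) (h5 : 5 ≤ p) (hx : x ^ p = 1)
    (ha : a ∈ gen x a) (hs : Group.IsSolvable (gen x a)) (hV : IsElementaryAbelian r V)
    (hV0 : V ≠ ⊥) (hQ : IsPGroup q Q) (hqr : q ≠ r) (hQA : Q ≤ gen x a)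
    (hn : gen x a ≤ normalizer (Q : Set G)) (ht : gen x a ⊔ V = ⊤)
    (h0 : V ⊓ centralizer (Q : Set G) = ⊥) : ∃ v ∈ V, gen x (v * a) ⊓ V ≠ ⊥ := by
  by_contra h
  push Not at h
  haveI := elem_finiteDimensional hV
  haveI : Fact p.Prime := ⟨hp⟩
  haveI : Nontrivial (ElemMod hV) := Finite.one_lt_card_iff_nontrivial.1 (by
    rw [ElemMod.card_eq]; exact (one_lt_card_iff_ne_bot V).2 hV0)
  let ρ := ElemMod.rep hV (le_normalizer_of_normal : gen x a ≤ normalizer (V : Set G))
  let x₀ : gen x a := ⟨x, left_mem_gen x a⟩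
  have h1 : x₀ ≠ 1 := fun e => hV0 (by
    have e' : x = 1 := congrArg Subtype.val e
    have : Q = ⊥ := eq_bot_iff.2 (hQA.trans (gen_le (by simp [e']) (by simp [e'])))
    rw [← h0, this]
    exact (inf_eq_left.2 (le_centralizer_iff.1 bot_le)).symm)
  obtain ⟨k, hk⟩ := hQ.exists_card_eq
  have h2 := half ρ hp h5 (orderOf_eq_prime (x := x₀) (Subtype.ext hx) h1) (top_le_iff.1 fun g _ => by
    have : gen x a ≤ (normalClosure {x₀}).map (gen x a).subtype := gen_le
      ⟨x₀, subset_normalClosure rfl, rfl⟩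
      ⟨_, normalClosure_normal.conj_mem x₀ (subset_normalClosure (Set.mem_singleton x₀)) ⟨a, ha⟩, rfl⟩
    obtain ⟨y, hy, e⟩ := this g.2
    rwa [← (Subtype.ext e : y = g)]) (Q.subgroupOf (gen x a)) (by
      rw [Nat.card_congr (subgroupOfEquivOfLe hQA).toEquiv, hk, Nat.cast_pow]
      exact pow_ne_zero _ (natCast_zmod_ne_zero Fact.out Fact.out hqr.symm))
    (eq_bot_iff.2 fun m hm => ElemMod.toG_eq_one.1 (h0.le ⟨m.toG_mem, fun g hg =>
      (ElemMod.rep_apply_eq_iff _ (⟨g, hQA hg⟩ : gen x a) m).1 (mem_fixSp.1 hm _ hg)⟩))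
  have h3 : ⊤ ≤ LinearMap.ker (ρ x₀ - 1) ⊔ (LinearMap.ker (ρ x₀ - 1)).map (ρ ⟨a, ha⟩) := fun m _ => by
    obtain ⟨w, hw, w', hw', e1, e2, e3⟩ := split (elemAb_isPGroup hV) hQ hqr hn ht h0 m.toG_mem
      (h _ m.toG_mem)
    have h4 : a⁻¹ * w' * a⁻¹⁻¹ ∈ V := Normal.conj_mem ‹_› _ hw' _
    refine Submodule.mem_sup.2 ⟨ElemMod.ofG hV w hw, sub_eq_zero.2
      ((ElemMod.rep_apply_eq_iff _ x₀ _).2 e1), ElemMod.ofG hV w' hw', ⟨ElemMod.ofG hV _ h4,
        sub_eq_zero.2 ((ElemMod.rep_apply_eq_iff _ x₀ _).2 ?_), ElemMod.toG_injective ?_⟩,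
      ElemMod.toG_injective e3.symm⟩
    · change x * (a⁻¹ * w' * a⁻¹⁻¹) = a⁻¹ * w' * a⁻¹⁻¹ * x
      calc _ = a⁻¹ * (a * x * a⁻¹ * w') * a := by group
        _ = _ := by rw [e2]; group
    · rw [ElemMod.toG_rep]
      simp [ElemMod.toG_ofG, mul_assoc]
  have h4 := (Submodule.finrank_mono h3).trans (Submodule.finrank_add_le_finrank_add_finrank _ _)
  rw [finrank_top, finrank_map] at h4
  omega

theorem exists_gen_eq_top [R.Normal] (hp : p.Prime) (h5 : 5 ≤ p) (hx : x ^ p = 1)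
    (ha : a ∈ gen x a) (hs : Group.IsSolvable (gen x a)) (hR : IsPGroup r R)
    (hQ : IsPGroup q Q) (hqr : q ≠ r) (hQA : Q ≤ gen x a)
    (hn : gen x a ≤ normalizer (Q : Set G)) (ht : gen x a ⊔ R = ⊤)
    (hmin : ∀ R₀ : Subgroup G, R₀.Normal → R₀ < R → R₀ ≤ centralizer (Q : Set G))
    (h0 : ¬ R ≤ centralizer (Q : Set G)) : ∃ v ∈ R, gen x (v * a) = ⊤ := by
  have hcop : (Nat.card Q).Coprime (Nat.card R) := IsPGroup.coprime_card_of_ne q r hqr Q R hQ hR
  have h1 : ⁅R, Q⁆ = R := by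
    by_contra h
    refine h0 (commutator_eq_bot_iff_le_centralizer.1 ?_)
    rw [← Coprime.commutator_commutator_eq le_normalizer_of_normal hcop,
      commutator_eq_bot_iff_le_centralizer]
    exact hmin _ (normalizer_eq_top_iff.1 (top_le_iff.1 (ht.ge.trans (sup_le
      (le_normalizer_commutator le_normalizer_of_normal hn) (normalizer_commutator_ge_left _ _)))))
      (lt_of_le_of_ne (commutator_le_left _ _) h)
  set Φ := (frattini R).map R.subtype with hΦ
  have hΦR : Φ < R := Core.map_frattini_lt fun e => h0 (e.le.trans bot_le)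
  let π := QuotientGroup.mk' Φ
  have hπ : Function.Surjective π := QuotientGroup.mk'_surjective _
  have hV : IsElementaryAbelian r (R.map π) := StableW.elemAb_map_frattini hR
  haveI := hV.1
  haveI : (R.map π).Normal := Normal.map ‹_› π hπ
  have h2 : R.map π ⊓ centralizer (Q.map π : Set (G ⧸ Φ)) = ⊥ := by
    have := Coprime.centralizer_inf_commutator_eq_bot (V := R.map π) (A := Q.map π)
      le_normalizer_of_normal (IsPGroup.coprime_card_of_ne q r hqr _ _ (hQ.map π) (hR.map π))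
    rwa [← map_commutator, h1, inf_comm] at this
  have h3 : gen (π x) (π a) ⊔ R.map π = ⊤ := by
    rw [← map_gen, ← Subgroup.map_sup, ht, map_top_of_surjective _ hπ]
  obtain ⟨_, ⟨v, hv, rfl⟩, h4⟩ := exists_inf_ne_bot (x := π x) (a := π a) hp h5
    (by rw [← map_pow, hx, map_one]) (map_gen π x a ▸ mem_map_of_mem π ha)
    (map_gen π x a ▸ Core.isSolvable_map π _) hV
    (fun e => hΦR.not_ge (((Subgroup.map_eq_bot_iff _).1 e).trans (QuotientGroup.ker_mk' Φ).le))
    (hQ.map π) hqr (map_gen π x a ▸ map_mono hQA) (map_gen π x a ▸ map_le_normalizer_map π hn) h3 h2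
  refine ⟨v, hv, ?_⟩
  have h6 : (gen (π x) (π v * π a) ⊓ R.map π).Normal := normalizer_eq_top_iff.1 (top_le_iff.1
    (h3.ge.trans ((sup_le (gen_sup (mem_map_of_mem π hv)) le_sup_right).trans (sup_le
      (le_normalizer_inf le_normalizer le_normalizer_of_normal) ((elemAb_le_centralizer hV).trans
        ((centralizer_anti inf_le_right).trans (centralizer_le_normalizer _)))))))
  have h7 : (gen (π x) (π v * π a) ⊓ R.map π).comap π ≤ R :=
    (comap_mono inf_le_right).trans (by rw [comap_map_eq, QuotientGroup.ker_mk']; exact sup_le le_rfl hΦR.le)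
  rcases h7.lt_or_eq with h8 | h8
  · refine (h4 (eq_bot_iff.2 ((le_inf inf_le_right ?_).trans h2.le))).elim
    rw [← map_comap_eq_self_of_surjective hπ (gen (π x) (π v * π a) ⊓ R.map π)]
    exact map_le_centralizer_map π (hmin _ (h6.comap π) h8)
  have h9 : R ≤ Φ ⊔ gen x (v * a) := h8.ge.trans ((comap_mono inf_le_left).trans (by
    rw [← map_mul, ← map_gen, comap_map_eq, QuotientGroup.ker_mk', sup_comm]))
  have h10 : R ⊓ gen x (v * a) = R := Core.eq_of_le_sup_map_frattini inf_le_left (by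
    rw [sup_comm, ← inf_sup_of_le_of_le_normalizer le_normalizer_of_normal hΦR.le]
    exact le_inf le_rfl h9)
  exact top_le_iff.1 (ht.ge.trans ((sup_le (gen_sup hv) le_sup_right).trans
    (sup_le le_rfl (h10.ge.trans inf_le_right))))

theorem le_centralizer (hp : p.Prime) (h5 : 5 ≤ p) (hx : x ^ p = 1)
    (ha : a ∈ gen x a) (hs : Group.IsSolvable (gen x a))
    (hmax : ∀ b, gen x a ≤ gen x b → b ∈ gen x b → Group.IsSolvable (gen x b) → gen x b = gen x a)
    (hQ : IsPGroup q Q) (hqr : q ≠ r) (hQA : Q ≤ gen x a) (hn : gen x a ≤ normalizer (Q : Set G))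
    (hR : IsPGroup r R) (hRn : gen x a ≤ normalizer (R : Set G)) : R ≤ centralizer (Q : Set G) := by
  induction hc : Nat.card R using Nat.strong_induction_on generalizing R with
  | _ n ih =>
  by_contra h0
  set B := gen x a ⊔ R with hB
  have hAB : gen x a ≤ B := le_sup_left
  have hRB : R ≤ B := le_sup_right
  haveI : (R.subgroupOf B).Normal := normal_subgroupOf_of_le (sup_le hRn le_normalizer)
  let x₀ : B := ⟨x, hAB (left_mem_gen x a)⟩
  let a₀ : B := ⟨a, hAB ha⟩
  have e1 : (gen x₀ a₀).map B.subtype = gen x a := map_gen _ _ _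
  have e2 : gen x₀ a₀ = (gen x a).subgroupOf B := by
    rw [← e1, subgroupOf, comap_map_eq_self_of_injective B.subtype_injective]
  have e3 : (Q.subgroupOf B).map B.subtype = Q := map_subgroupOf_eq_of_le (hQA.trans hAB)
  have e4 : (R.subgroupOf B).map B.subtype = R := map_subgroupOf_eq_of_le hRB
  obtain ⟨v, hv, e⟩ := exists_gen_eq_top (x := x₀) (a := a₀) (Q := Q.subgroupOf B)
    (R := R.subgroupOf B) hp h5 (Subtype.ext hx) (e2 ▸ ha)
    (e2 ▸ Group.isSolvable_of_isSolvable_injective (f := (subgroupOfEquivOfLe hAB).toMonoidHom)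
      (subgroupOfEquivOfLe hAB).injective) hR.comap_subtype hQ.comap_subtype hqr
    (e2 ▸ comap_mono hQA) ((map_le_normalizer_map_iff B.subtype_injective).1 (by rwa [e1, e3]))
    (map_injective B.subtype_injective (by
      rw [Subgroup.map_sup, e1, e4, ← MonoidHom.range_eq_map, range_subtype]))
    (fun R₀ h1 h2 => by
      have h3 : R₀.map B.subtype < R := e4 ▸ (map_lt_map_iff_of_injective B.subtype_injective).2 h2
      have h4 : Nat.card (R₀.map B.subtype) < n := hc ▸ lt_of_le_of_ne (card_le_of_le h3.le)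
        fun e => h3.ne (eq_of_le_of_card_ge h3.le e.ge)
      refine (map_le_centralizer_map_iff B.subtype_injective).1 ?_
      rw [e3]
      exact ih _ h4 (hR.to_le h3.le) (hAB.trans (le_normalizer_map_subtype R₀)) rfl)
    (fun h => h0 (by rw [← e3, ← e4]; exact map_le_centralizer_map _ h))
  have e5 : gen x (v * a) = B := by
    have := congrArg (Subgroup.map B.subtype) e
    rwa [map_gen, ← MonoidHom.range_eq_map, range_subtype] at this
  haveI := hR.isNilpotent
  have e6 := hmax (v * a) (hAB.trans e5.ge) (e5.ge (B.mul_mem v.2 (hAB ha)))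
    (by rw [e5]; exact Core.isSolvable_sup_of_le_normalizer hRn)
  exact h0 (commutator_eq_bot_iff_le_centralizer.1 (eq_bot_iff.2 ((le_inf
    (commutator_le_right_of_le_normalizer (((hRB.trans e5.ge).trans e6.le).trans hn))
    (commutator_le_left_of_le_normalizer (hQA.trans hRn))).trans
      (IsPGroup.disjoint_of_ne q r hqr Q R hQ hR).le_bot)))

end CfsgLib.FlavD
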